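import Mathlib
import Cfsg.Agent.Lib.PG63.PSpA

/-!
# The prime graph of `PSp₆(3)`: the edges and the order
-/

set_option autoImplicit false
set_option linter.unusedSectionVars false
set_option linter.unusedVariables false

namespace Cfsg.Agent.Lib.PG63

open Matrix Polynomial Cfsg Cfsg.Agent.Lib.Classical.Symp.Basic Cfsg.Agent.Lib.Classical.Symp.OrdModels
open Cfsg.Agent.Lib.Classical.Symp.OrdClass Cfsg.Agent.Lib.Classical.Symp.SimpleMatrix
open Cfsg.Agent.Lib.Classical.Spectra.OddOrders

variable {F : Type*} [Field F] [Fintype F]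

theorem charP_three (hF : Fintype.card F = 3) : CharP F 3 := by
  obtain ⟨p, hp⟩ := CharP.exists F
  obtain ⟨n, hprime, hcard⟩ := FiniteField.card F p
  have hp3 : p = 3 := by
    have hd : (p : ℕ) ∣ 3 := by
      rw [← hF, hcard]
      exact dvd_pow_self _ n.pos.ne'
    exact (Nat.prime_dvd_prime_iff_eq hprime Nat.prime_three).mp hd
  subst hp3
  exact hp

theorem two_ne_three (hF : Fintype.card F = 3) : (2 : F) ≠ 0 := by
  haveI := charP_three hF
  intro h
  have h1 : ((2 : ℕ) : F) = 0 := by exact_mod_cast h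
  have := (CharP.cast_eq_zero_iff F 3 2).1 h1
  omega

theorem mk_pow_of_sp (A : symplecticGroup (Fin 3) F) : orderOf (QuotientGroup.mk A : PSp 3 F) ∣ orderOf A := by
  apply orderOf_dvd_of_pow_eq_one
  rw [← QuotientGroup.mk_pow, pow_orderOf_eq_one]
  rfl

theorem pow14 (hF : Fintype.card F = 3) (x : PSp 3 F) (h : 7 ∣ orderOf x) : x ^ 14 = 1 := by
  haveI := charP_three hF
  obtain ⟨A, rfl⟩ := QuotientGroup.mk_surjective x
  obtain ⟨hno, h1⟩ := main_sp hF A 7 (Or.inl rfl) (h.trans (mk_pow_of_sp A))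
  rcases h1 with ⟨h2, _⟩ | ⟨_, h2⟩
  · omega
  · refine sq_psp (two_ne_three hF) A hno 14 ?_
    rw [← pow_add]
    exact h2

theorem pow13 (hF : Fintype.card F = 3) (x : PSp 3 F) (h : 13 ∣ orderOf x) : x ^ 13 = 1 := by
  haveI := charP_three hF
  obtain ⟨A, rfl⟩ := QuotientGroup.mk_surjective x
  obtain ⟨hno, h1⟩ := main_sp hF A 13 (Or.inr rfl) (h.trans (mk_pow_of_sp A))
  rcases h1 with ⟨_, h2⟩ | ⟨h2, _⟩
  · refine sq_psp (two_ne_three hF) A hno 13 ?_
    rw [← pow_add]
    exact h2
  · omega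

theorem card_Sp (hF : Fintype.card F = 3) : Nat.card (symplecticGroup (Fin 3) F) = 9170703360 := by
  rw [Nat.card_congr (spEquivIsom (m := 3) (F := F)).toEquiv]
  have h1 := Cfsg.Agent.Lib.Classical.Symp.Count.card_isomGroup (F := F) 3
    (by rw [Nat.card_eq_fintype_card, hF]) 3 (Fin 3 ⊕ Fin 3 → F) (sympBilin 3 F)
    sympBilin_isAlt sympBilin_nondegenerate (by simp)
  rw [h1]
  norm_num [Finset.prod_range_succ]

theorem card_PSp (hF : Fintype.card F = 3) : Nat.card (PSp 3 F) = 4585351680 := by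
  have h1 := Cfsg.Agent.Lib.Classical.Symp.Aut.Card.card_S_eq (m := 3) (F := F) (by omega)
  have h2 := Cfsg.Agent.Lib.Classical.Symp.Aut.Card.card_center_odd (m := 3) (F := F) (by omega) (two_ne_three hF)
  rw [h2] at h1
  have h3 := card_Sp hF
  have h4 : Nat.card (Cfsg.Agent.Lib.Classical.Symp.Aut.Ind.SpG 3 F) = 9170703360 := h3
  rw [h4] at h1
  omega

theorem card_factor : (4585351680 : ℕ) = 2 ^ 9 * 3 ^ 9 * 5 * 7 * 13 := by norm_num

theorem prime_of_dvd_card (hF : Fintype.card F = 3) {p : ℕ} (hp : p.Prime) :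
    p ∣ Nat.card (PSp 3 F) ↔ p = 2 ∨ p = 3 ∨ p = 5 ∨ p = 7 ∨ p = 13 := by
  rw [card_PSp hF, card_factor]
  constructor
  · intro h
    rcases (Nat.Prime.dvd_mul hp).1 h with h | h
    · rcases (Nat.Prime.dvd_mul hp).1 h with h | h
      · rcases (Nat.Prime.dvd_mul hp).1 h with h | h
        · rcases (Nat.Prime.dvd_mul hp).1 h with h | h
          · left
            exact (Nat.prime_dvd_prime_iff_eq hp Nat.prime_two).1 (hp.dvd_of_dvd_pow h)
          · right; left
            exact (Nat.prime_dvd_prime_iff_eq hp Nat.prime_three).1 (hp.dvd_of_dvd_pow h)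
        · right; right; left
          exact (Nat.prime_dvd_prime_iff_eq hp Nat.prime_five).1 h
      · right; right; right; left
        exact (Nat.prime_dvd_prime_iff_eq hp (by norm_num)).1 h
    · right; right; right; right
      exact (Nat.prime_dvd_prime_iff_eq hp (by norm_num)).1 h
  · rintro (rfl | rfl | rfl | rfl | rfl) <;> norm_num

theorem isOrd_two_five (hF : Fintype.card F = 3) : IsOrd F 2 5 := by
  haveI := charP_three hF
  haveI : Fact (Nat.Prime 3) := ⟨Nat.prime_three⟩
  obtain ⟨z, hz⟩ := exists_order_minus (F := F) (n := 2) 3 (by omega) (two_ne_three hF) (D := 5) (by rw [hF]; norm_num)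
  obtain ⟨A, _, hA⟩ := exists_lift (by omega) z (by rw [hz]; decide)
  exact ⟨A, by rw [hA, hz]⟩

theorem isOrd_one_three (hF : Fintype.card F = 3) : IsOrd F 1 3 := by
  haveI := charP_three hF
  haveI : Fact (Nat.Prime 3) := ⟨Nat.prime_three⟩
  exact isOrd_p 3 (two_ne_three hF) le_rfl

theorem exists_six (hF : Fintype.card F = 3) : ∃ z : PSp 3 F, orderOf z = 6 := by
  obtain ⟨z, hz⟩ := exists_twist (two_ne_three hF) (k := 1) (l := 2) (by omega) (by omega) (isOrd_one_three hF)
    (isOrd_one 2) (by decide) (by decide)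
  exact ⟨z, by simpa using hz⟩

theorem exists_ten (hF : Fintype.card F = 3) : ∃ z : PSp 3 F, orderOf z = 10 := by
  obtain ⟨z, hz⟩ := exists_twist (two_ne_three hF) (k := 2) (l := 1) (by omega) (by omega) (isOrd_two_five hF)
    (isOrd_one 1) (by decide) (by decide)
  exact ⟨z, by simpa using hz⟩

theorem exists_fourteen (hF : Fintype.card F = 3) : ∃ z : PSp 3 F, orderOf z = 14 := by
  haveI := charP_three hF
  haveI : Fact (Nat.Prime 3) := ⟨Nat.prime_three⟩
  exact exists_order_minus (F := F) (n := 3) 3 (by omega) (two_ne_three hF) (D := 14) (by rw [hF]; norm_num)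

theorem exists_fifteen (hF : Fintype.card F = 3) : ∃ z : PSp 3 F, orderOf z = 15 := by
  obtain ⟨A, hA⟩ := (isOrd_two_five hF).sum (isOrd_one_three hF)
  refine ⟨QuotientGroup.mk A, order_mk_of_odd (by omega) (two_ne_three hF) A (o := 15) (by decide) fun t => ?_⟩
  rw [← sp_pow_eq_one_iff, ← orderOf_dvd_iff_pow_eq_one, hA]
  norm_num

/-- The edges of the prime graph of `PSp₆(3)`. -/
theorem edges_iff (hF : Fintype.card F = 3) {p q : ℕ} (hp : p.Prime) (hq : q.Prime) (hpq : p ≠ q) :
    (∃ g : PSp 3 F, orderOf g = p * q) ↔ p * q = 6 ∨ p * q = 10 ∨ p * q = 14 ∨ p * q = 15 := by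
  constructor
  · rintro ⟨g, hg⟩
    have hp5 := (prime_of_dvd_card hF hp).1 ((Dvd.intro _ hg.symm).trans (orderOf_dvd_natCard g))
    have hq5 := (prime_of_dvd_card hF hq).1 ((Dvd.intro_left _ hg.symm).trans (orderOf_dvd_natCard g))
    have h13 : ¬ 13 ∣ p * q := by
      intro h
      rw [← hg] at h
      have h1 := orderOf_dvd_of_pow_eq_one (pow13 hF g h)
      rw [hg] at h1
      have hp1 := (Nat.prime_dvd_prime_iff_eq hp (by norm_num)).1 ((Dvd.intro _ rfl).trans h1)
      have hq1 := (Nat.prime_dvd_prime_iff_eq hq (by norm_num)).1 ((Dvd.intro_left _ rfl).trans h1)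
      omega
    have h7 : 7 ∣ p * q → p * q ∣ 14 := by
      intro h
      rw [← hg] at h
      have h1 := orderOf_dvd_of_pow_eq_one (pow14 hF g h)
      rwa [hg] at h1
    rcases hp5 with rfl | rfl | rfl | rfl | rfl <;> rcases hq5 with rfl | rfl | rfl | rfl | rfl <;>
      first
        | exact absurd rfl hpq
        | (norm_num; done)
        | (revert h13; norm_num; done)
        | (revert h7; norm_num; done)
  · rintro (h | h | h | h) <;> rw [h]
    · exact exists_six hF
    · exact exists_ten hF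
    · exact exists_fourteen hF
    · exact exists_fifteen hF

end Cfsg.Agent.Lib.PG63
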