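import Mathlib
import Cfsg.Agent.Lib.Suzuki.Aut
import Cfsg.Agent.Lib.Suzuki.Tori3
import Cfsg.Agent.Lib.ChevAut.FieldCard

/-!
# Traces and element orders in `Sz(q)`

The characteristic polynomial of `g ∈ Sz(q)` with trace `a` is `X⁴ + a X³ + a^r X² + a X + 1`.
-/

set_option autoImplicit false
set_option linter.unusedSectionVars false
set_option linter.unusedVariables false
set_option linter.unusedSimpArgs false

namespace Cfsg.Agent.Lib.PG63

open Matrix Cfsg.Agent.Lib.Suzuki.Basic Cfsg.Agent.Lib.Suzuki.Group Cfsg.Agent.Lib.Suzuki.Struct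
  Cfsg.Agent.Lib.Suzuki.Order Cfsg.Agent.Lib.Suzuki.Gen Cfsg.Agent.Lib.Suzuki.Fix Cfsg.Agent.Lib.Suzuki.Types
  Cfsg.Agent.Lib.Suzuki.Iso Cfsg.Agent.Lib.Suzuki.Core Cfsg.Agent.Lib.Suzuki.Aut
  Cfsg.Agent.Lib.Suzuki.Tori1 Cfsg.Agent.Lib.Suzuki.Tori2 Cfsg.Agent.Lib.Suzuki.Tori3

variable {F : Type*} [Field F] [Fintype F] {m : ℕ} (h : Hyp F m)

theorem mat_pow' (g : G F m) (n : ℕ) : mat (g ^ n) = mat g ^ n := by
  induction n with
  | zero => rw [pow_zero, pow_zero, mat_one]
  | succ n ih => rw [pow_succ, mat_mul, ih, pow_succ]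

theorem mat_inj {g g' : G F m} (he : mat g = mat g') : g = g' := by
  apply Subtype.ext
  apply Subtype.ext
  exact he

include h

theorem exists_y0 : ∃ y₀ : F, y₀ ≠ 0 ∧ y₀ ≠ 1 := by
  have hc : 2 < Fintype.card F := by
    rw [h.hF]
    calc 2 < 2 ^ 2 := by norm_num
      _ ≤ 2 ^ (2 * m + 1) := Nat.pow_le_pow_right (by norm_num) (by have := h.hm; omega)
  obtain ⟨a, b, c, hab, hac, hbc⟩ := Fintype.two_lt_card_iff.1 hc
  by_cases ha0 : a = 0
  · by_cases hb1 : b = 1
    · refine ⟨c, ?_, ?_⟩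
      · rw [← ha0]; exact hac.symm
      · rw [← hb1]; exact hbc.symm
    · exact ⟨b, by rw [← ha0]; exact hab.symm, hb1⟩
  · by_cases ha1 : a = 1
    · by_cases hb0 : b = 0
      · refine ⟨c, ?_, ?_⟩
        · rw [← hb0]; exact hbc.symm
        · rw [← ha1]; exact hac.symm
      · exact ⟨b, hb0, by rw [← ha1]; exact hab.symm⟩
    · exact ⟨a, ha0, ha1⟩

theorem colRel_mat (t : G F m) : ColRel (mat t) :=
  (Lie_mem h (toGL t) (toGL_mem h t)).1

theorem star_mat (t : G F m) : Cfsg.Lie.star4 (mat t) = (mat t).map (fun x => x ^ 2 ^ (m + 1)) :=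
  (Lie_mem h (toGL t) (toGL_mem h t)).2

omit h in
theorem det_mat (t : G F m) : (mat t).det = 1 := t.1.2

/-- Palindromy of the characteristic polynomial. -/
theorem coefC_mat (t : G F m) : coefC (mat t) = coefA (mat t) := by
  obtain ⟨y₀, hy0, hy1⟩ := exists_y0 h
  have h2 := h.two_eq_zero
  set g := mat t with hgdef
  have hg : ColRel g := colRel_mat h t
  have hdet : g.det = 1 := det_mat t
  set a := coefA g with ha
  set b := coefB g with hb
  set c := coefC g with hc
  have hJdet : ((Jm : Matrix (Fin 4) (Fin 4) F).det) ^ 2 = 1 := by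
    rw [pow_two, ← Matrix.det_mul, Jm_mul_Jm, Matrix.det_one]
  have hsym : ∀ x y : F, (y • (1 : Matrix (Fin 4) (Fin 4) F) - x • g).det =
      g.det * (x • (1 : Matrix (Fin 4) (Fin 4) F) - y • g).det := by
    intro x y
    have e1 : y • (1 : Matrix (Fin 4) (Fin 4) F) - x • g = g * (y • invOf g - x • 1) := by
      rw [Matrix.mul_sub, Matrix.mul_smul, Matrix.mul_smul, mul_invOf hg, Matrix.mul_one]
    have e2 : y • invOf g - x • 1 = Jm * (y • g.transpose - x • 1) * Jm := by
      rw [Matrix.mul_sub, Matrix.sub_mul, Matrix.mul_smul, Matrix.smul_mul, Matrix.mul_smul,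
        Matrix.smul_mul, Matrix.mul_one, Jm_mul_Jm]
      rfl
    have e3 : (Jm * (y • g.transpose - x • 1) * Jm : Matrix (Fin 4) (Fin 4) F).det =
        (y • g.transpose - x • (1 : Matrix (Fin 4) (Fin 4) F)).det := by
      rw [Matrix.det_mul, Matrix.det_mul]
      have : (Jm : Matrix (Fin 4) (Fin 4) F).det * Jm.det = 1 := by
        rw [← pow_two]; exact hJdet
      calc _ = (y • g.transpose - x • (1 : Matrix (Fin 4) (Fin 4) F)).det *
            ((Jm : Matrix (Fin 4) (Fin 4) F).det * Jm.det) := by ring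
        _ = _ := by rw [this, mul_one]
    have e4 : (y • g.transpose - x • (1 : Matrix (Fin 4) (Fin 4) F)) =
        (y • g - x • (1 : Matrix (Fin 4) (Fin 4) F)).transpose := by
      rw [Matrix.transpose_sub, Matrix.transpose_smul, Matrix.transpose_smul, Matrix.transpose_one]
    have e5 : (y • g - x • (1 : Matrix (Fin 4) (Fin 4) F)) =
        - (x • (1 : Matrix (Fin 4) (Fin 4) F) - y • g) := by
      rw [neg_sub]
    rw [e1, Matrix.det_mul, e2, e3, e4, Matrix.det_transpose, e5, Matrix.det_neg, Fintype.card_fin]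
    ring
  have hexp : ∀ x y : F, y ^ 4 - a * x * y ^ 3 + b * x ^ 2 * y ^ 2 - c * x ^ 3 * y + g.det * x ^ 4 =
      g.det * (x ^ 4 - a * y * x ^ 3 + b * y ^ 2 * x ^ 2 - c * y ^ 3 * x + g.det * y ^ 4) := by
    intro x y
    have := hsym x y
    rw [det_homog, det_homog] at this
    exact this
  have h1 := hexp 1 y₀
  rw [hdet] at h1
  have h' : (c - a) * (y₀ * (y₀ + 1) ^ 2) = 0 := by
    linear_combination h1 + (c - a) * (y₀ ^ 2 + y₀) * h2
  have hy2 : y₀ + 1 ≠ 0 := by
    intro hh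
    apply hy1
    linear_combination hh - h2
  have hne : y₀ * (y₀ + 1) ^ 2 ≠ 0 := mul_ne_zero hy0 (pow_ne_zero _ hy2)
  exact sub_eq_zero.mp ((mul_eq_zero.mp h').resolve_right hne)

theorem coefB_mat (t : G F m) : coefB (mat t) = coefA (mat t) ^ 2 ^ (m + 1) := by
  have h1 := trace_star4 h.two_eq_zero (colRel_mat h t)
  rw [star_mat h t] at h1
  have h3 : Matrix.trace ((mat t).map fun x => x ^ 2 ^ (m + 1)) = coefA (mat t) ^ 2 ^ (m + 1) := by
    rw [Matrix.trace, Fin.sum_univ_four, coefA, h.add_pow_sg, h.add_pow_sg, h.add_pow_sg]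
    rfl
  rw [← h1, h3]

/-- Cayley-Hamilton. -/
theorem cayley (t : G F m) :
    mat t ^ 4 + coefA (mat t) • mat t ^ 3 + (coefA (mat t) ^ 2 ^ (m + 1)) • mat t ^ 2 + coefA (mat t) • mat t + 1 = 0 := by
  have h2 := h.two_eq_zero
  have hch := Matrix.aeval_self_charpoly (mat t)
  rw [charpoly_eq, det_mat, coefC_mat h, coefB_mat h] at hch
  simp only [map_add, map_sub, map_mul, map_pow, Polynomial.aeval_X, Polynomial.aeval_C, map_one,
    Algebra.algebraMap_eq_smul_one, smul_mul_assoc, one_mul] at hch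
  rw [← hch]
  have hneg : ∀ M : Matrix (Fin 4) (Fin 4) F, -M = M := by
    intro M
    ext i j
    rw [Matrix.neg_apply]
    exact h.neg_eq _
  rw [sub_eq_add_neg, sub_eq_add_neg, hneg, hneg, smul_pow, one_pow, smul_mul_assoc, one_mul]

theorem pow_four_of_trace_zero (t : G F m) (ha : coefA (mat t) = 0) : t ^ 4 = 1 := by
  apply mat_inj
  have h1 := cayley h t
  rw [ha] at h1
  have h3 : (0 : F) ^ 2 ^ (m + 1) = 0 := zero_pow (by positivity)
  simp only [h3, zero_smul, add_zero] at h1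
  rw [mat_pow', mat_one]
  have hneg : ∀ M : Matrix (Fin 4) (Fin 4) F, -M = M := by
    intro M
    ext i j
    rw [Matrix.neg_apply]
    exact h.neg_eq _
  rw [← hneg 1]
  exact eq_neg_of_add_eq_zero_left h1

theorem pow_five_of_trace_one (t : G F m) (ha : coefA (mat t) = 1) : t ^ 5 = 1 := by
  apply mat_inj
  have h1 := cayley h t
  rw [ha] at h1
  simp only [one_pow, one_smul] at h1
  rw [mat_pow', mat_one]
  have h2 : (mat t - 1) * (mat t ^ 4 + mat t ^ 3 + mat t ^ 2 + mat t + 1) = mat t ^ 5 - 1 := by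
    noncomm_ring
  rw [h1, mul_zero] at h2
  exact (sub_eq_zero.1 h2.symm)

/-- Elements whose trace lies in the prime field have small order. -/
theorem trace_prime_field (t : G F m) (ha : coefA (mat t) ^ 2 = coefA (mat t)) : t ^ 4 = 1 ∨ t ^ 5 = 1 := by
  have h1 : coefA (mat t) * (coefA (mat t) - 1) = 0 := by linear_combination ha
  rcases mul_eq_zero.1 h1 with h3 | h3
  · exact Or.inl (pow_four_of_trace_zero h t h3)
  · exact Or.inr (pow_five_of_trace_one h t (sub_eq_zero.1 h3))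

end Cfsg.Agent.Lib.PG63
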