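import Mathlib
import Cfsg.Agent.Lib.PG63.SzA

/-!
# Element orders in `Sz(8) ⋊ C₃`
-/

set_option autoImplicit false
set_option linter.unusedSectionVars false
set_option linter.unusedVariables false
set_option linter.unusedSimpArgs false

namespace Cfsg.Agent.Lib.PG63

open Matrix Cfsg.Agent.Lib.Suzuki.Basic Cfsg.Agent.Lib.Suzuki.Group Cfsg.Agent.Lib.Suzuki.Struct
  Cfsg.Agent.Lib.Suzuki.Order Cfsg.Agent.Lib.Suzuki.Gen Cfsg.Agent.Lib.Suzuki.Fix Cfsg.Agent.Lib.Suzuki.Types
  Cfsg.Agent.Lib.Suzuki.Iso Cfsg.Agent.Lib.Suzuki.Core Cfsg.Agent.Lib.Suzuki.Aut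
  Cfsg.Agent.Lib.Suzuki.Tori1 Cfsg.Agent.Lib.Suzuki.Tori2 Cfsg.Agent.Lib.Suzuki.Tori3

variable {F : Type*} [Field F] [Fintype F]

section Sz8

variable (h : Hyp F 1)
include h

theorem card8 : Fintype.card F = 8 := h.hF

theorem card_G8 : Nat.card (G F 1) = 29120 := by
  rw [card_G h, card8 h]
  norm_num

theorem fpf_of_order (g : G F 1) {q : ℕ} (hq : q = 5 ∨ q = 13) (ho : orderOf g = q) : Fpf g := by
  intro w hw
  haveI : Finite (G F 1) := finite_G
  haveI : MulAction.IsPretransitive (G F 1) (Om F 1) := isPretransitive h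
  have h1 : (MulAction.stabilizer (G F 1) w).index = Nat.card (Om F 1) :=
    MulAction.index_stabilizer_of_transitive (G F 1) w
  have h2 := Subgroup.card_mul_index (MulAction.stabilizer (G F 1) w)
  rw [h1, card_Om, card_G8 h, card8 h] at h2
  have h3 : Nat.card (MulAction.stabilizer (G F 1) w) = 448 := by omega
  have h4 : orderOf g ∣ 448 := by
    rw [← h3]
    exact Subgroup.orderOf_dvd_natCard _ (MulAction.mem_stabilizer_iff.2 hw)
  rw [ho] at h4
  rcases hq with rfl | rfl <;> omega

theorem no_order_G (g : G F 1) (n : ℕ) (hn : n = 26 ∨ n = 35 ∨ n = 65 ∨ n = 91) : orderOf g ≠ n := by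
  intro ho
  haveI : Finite (G F 1) := finite_G
  have hg0 : orderOf g ≠ 0 := (orderOf_pos g).ne'
  obtain ⟨q, hq, hqn⟩ : ∃ q : ℕ, (q = 5 ∨ q = 13) ∧ q ∣ n := by
    rcases hn with rfl | rfl | rfl | rfl
    · exact ⟨13, Or.inr rfl, by norm_num⟩
    · exact ⟨5, Or.inl rfl, by norm_num⟩
    · exact ⟨13, Or.inr rfl, by norm_num⟩
    · exact ⟨13, Or.inr rfl, by norm_num⟩
  have hu := orderOf_pow_orderOf_div hg0 (n := q) (by rw [ho]; exact hqn)
  set u := g ^ (orderOf g / q) with hudef
  have hfu : Fpf u := fpf_of_order h u hq hu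
  have hgc : g ∈ cent u := by
    rw [mem_cent, hudef]
    exact (Commute.pow_right (Commute.refl g) _)
  have hd := card_cent_dvd h hfu
  rw [card8 h] at hd
  have h1 : orderOf g ∣ Nat.card (cent u) := Subgroup.orderOf_dvd_natCard _ hgc
  have h2 : orderOf g ∣ 65 := h1.trans hd
  rw [ho] at h2 h1
  rcases hn with rfl | rfl | rfl | rfl
  · omega
  · omega
  · have h3 : Nat.card (cent u) = 65 := Nat.dvd_antisymm hd h1
    obtain ⟨A₁, A₂, hall, _, _, hc₁, hc₂⟩ := tori_main h
    rcases hall ⟨cent u, u, hfu, rfl⟩ with ⟨x, hx⟩ | ⟨x, hx⟩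
    · have := congrArg (fun A : Tor F 1 => Nat.card A.1) hx
      simp only [card_smul] at this
      rw [h3, hc₁] at this
      omega
    · have := congrArg (fun A : Tor F 1 => Nat.card A.1) hx
      simp only [card_smul] at this
      rw [h3, hc₂] at this
      omega
  · omega

end Sz8

section Aut

/-- The squaring map. -/
def sqHom (h : Hyp F 1) : F →+* F where
  toFun x := x ^ 2
  map_one' := one_pow _
  map_mul' x y := mul_pow x y 2
  map_zero' := by simp
  map_add' := h.add_sq

/-- The Frobenius automorphism. -/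
noncomputable def phi (h : Hyp F 1) : F ≃+* F :=
  RingEquiv.ofBijective (sqHom h) (Finite.injective_iff_bijective.1 (sqHom h).injective)

theorem phi_apply (h : Hyp F 1) (x : F) : phi h x = x ^ 2 := rfl

variable (h : Hyp F 1)
include h

omit h in
theorem phi_mul_apply (h : Hyp F 1) (x : F) : (phi h * phi h) x = x ^ 4 := by
  change phi h (phi h x) = _
  rw [phi_apply, phi_apply, ← pow_mul]

theorem pow_eight (x : F) : x ^ 8 = x := h.pow_card x

theorem card_aut3 : Nat.card (F ≃+* F) = 3 := by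
  haveI := h.charP
  haveI : Fact (Nat.Prime 2) := ⟨Nat.prime_two⟩
  exact Cfsg.Agent.Lib.ChevAut.FieldCard.card_aut 2 3 h.hF

theorem phi_ne_one : phi h ≠ 1 := by
  obtain ⟨y₀, hy0, hy1⟩ := exists_y0 h
  intro he
  have h1 : phi h y₀ = y₀ := by rw [he]; rfl
  rw [phi_apply] at h1
  have h2 : y₀ * (y₀ - 1) = 0 := by linear_combination h1
  rcases mul_eq_zero.1 h2 with h3 | h3
  · exact hy0 h3
  · exact hy1 (sub_eq_zero.1 h3)

theorem order_phi : orderOf (phi h) = 3 := by
  haveI : Fact (Nat.Prime 3) := ⟨Nat.prime_three⟩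
  apply orderOf_eq_prime _ (phi_ne_one h)
  apply RingEquiv.ext
  intro x
  have h1 : (phi h ^ 3) x = phi h (phi h (phi h x)) := rfl
  rw [h1, phi_apply, phi_apply, phi_apply, ← pow_mul, ← pow_mul]
  exact pow_eight h x

theorem aut_cases (τ : F ≃+* F) : τ = 1 ∨ τ = phi h ∨ τ = phi h * phi h := by
  classical
  haveI : Finite (F ≃+* F) := by
    apply Finite.of_injective (fun e : F ≃+* F => (e : F → F))
    intro a b hab
    exact DFunLike.coe_injective hab
  have htop : Subgroup.zpowers (phi h) = ⊤ := by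
    apply Subgroup.eq_top_of_card_eq
    rw [Nat.card_zpowers, order_phi h, card_aut3 h]
  have hmem : τ ∈ Subgroup.zpowers (phi h) := by rw [htop]; trivial
  rw [← mem_powers_iff_mem_zpowers, mem_powers_iff_mem_range_orderOf, order_phi h] at hmem
  obtain ⟨k, hk, rfl⟩ := Finset.mem_image.1 hmem
  have hk3 : k < 3 := Finset.mem_range.1 hk
  interval_cases k
  · left; simp
  · right; left; simp
  · right; right; rw [pow_two]

theorem fixed_of_ne (τ : F ≃+* F) (hτ : τ ≠ 1) (a : F) (ha : τ a = a) : a ^ 2 = a := by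
  rcases aut_cases h τ with rfl | rfl | rfl
  · exact absurd rfl hτ
  · rwa [phi_apply] at ha
  · rw [phi_mul_apply] at ha
    have h1 := pow_eight h a
    have h2 : a ^ 8 = a ^ 4 * a ^ 4 := by ring
    rw [ha, h1] at h2
    rw [pow_two]
    exact h2.symm

end Aut

section KK

/-- The action of the field automorphisms on `Sz(8)`. -/
noncomputable def thetaHom (h : Hyp F 1) : (F ≃+* F) →* MulAut (G F 1) where
  toFun τ := twist h τ
  map_one' := by
    apply MulEquiv.ext
    intro g
    apply mat_inj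
    change mat (twistHom h 1 g) = mat g
    rw [mat_twistHom]
    ext i j
    rfl
  map_mul' τ τ' := by
    apply MulEquiv.ext
    intro g
    apply mat_inj
    change mat (twistHom h (τ * τ') g) = mat (twistHom h τ (twistHom h τ' g))
    rw [mat_twistHom, mat_twistHom, mat_twistHom]
    ext i j
    rfl

theorem mat_theta (h : Hyp F 1) (τ : F ≃+* F) (g : G F 1) : mat (thetaHom h τ g) = (mat g).map τ := rfl

/-- `Sz(8) ⋊ C₃`. -/
abbrev KK (h : Hyp F 1) := G F 1 ⋊[thetaHom h] (F ≃+* F)

variable (h : Hyp F 1)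

instance : Finite (F ≃+* F) := by
  apply Finite.of_injective (fun e : F ≃+* F => (e : F → F))
  intro a b hab
  exact DFunLike.coe_injective hab

instance instFiniteKK : Finite (KK h) := by
  haveI : Finite (G F 1) := finite_G
  exact Finite.of_equiv _ (SemidirectProduct.equivProd (φ := thetaHom h)).symm

theorem card_KK : Nat.card (KK h) = 87360 := by
  rw [SemidirectProduct.card, card_G8 h, card_aut3 h]

theorem right_cube (κ : KK h) : κ.right ^ 3 = 1 := by
  rw [← card_aut3 h]
  exact pow_card_eq_one'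

omit [Fintype F] in
theorem right_pow' {G₁ C : Type*} [_root_.Group G₁] [_root_.Group C] {θ : C →* MulAut G₁} (p : G₁ ⋊[θ] C) (n : ℕ) :
    (p ^ n).right = p.right ^ n :=
  map_pow (SemidirectProduct.rightHom (φ := θ)) p n

omit [Fintype F] in
theorem eq_inl' {G₁ C : Type*} [_root_.Group G₁] [_root_.Group C] {θ : C →* MulAut G₁} (p : G₁ ⋊[θ] C) (hp : p.right = 1) :
    p = SemidirectProduct.inl p.left := by
  apply SemidirectProduct.ext
  · simp
  · simp [hp]

omit [Fintype F] in
theorem comm_inl_inr {G₁ C : Type*} [_root_.Group G₁] [_root_.Group C] {θ : C →* MulAut G₁} (g : G₁) (τ : C)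
    (hg : θ τ g = g) :
    Commute (SemidirectProduct.inl g : G₁ ⋊[θ] C) (SemidirectProduct.inr τ) := by
  apply SemidirectProduct.ext
  · simp [hg]
  · simp

omit [Fintype F] in
theorem order_comm_inl_inr {G₁ C : Type*} [_root_.Group G₁] [_root_.Group C] {θ : C →* MulAut G₁} (g : G₁) (τ : C)
    (hg : θ τ g = g) (hc : Nat.Coprime (orderOf g) (orderOf τ)) :
    orderOf ((SemidirectProduct.inl g : G₁ ⋊[θ] C) * SemidirectProduct.inr τ) = orderOf g * orderOf τ := by
  have h1 := comm_inl_inr g τ hg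
  rw [h1.orderOf_mul_eq_mul_orderOf_of_coprime, orderOf_injective _ SemidirectProduct.inl_injective,
    orderOf_injective _ SemidirectProduct.inr_injective]
  rwa [orderOf_injective _ SemidirectProduct.inl_injective, orderOf_injective _ SemidirectProduct.inr_injective]

theorem no_order_K₁ (κ : KK h) (n : ℕ) (hn : n = 26 ∨ n = 35 ∨ n = 65 ∨ n = 91) : orderOf κ ≠ n := by
  intro ho
  have hc : Nat.Coprime n 3 := by
    rcases hn with rfl | rfl | rfl | rfl <;> norm_num
  have h1 : κ.right ^ n = 1 := by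
    rw [← right_pow', ← ho, pow_orderOf_eq_one]
    rfl
  have h2 : κ.right = 1 := by
    have h3 : orderOf κ.right ∣ n := orderOf_dvd_of_pow_eq_one h1
    have h4 : orderOf κ.right ∣ 3 := orderOf_dvd_of_pow_eq_one (right_cube h κ)
    have h5 := Nat.eq_one_of_dvd_coprimes hc h3 h4
    exact orderOf_eq_one_iff.1 h5
  have h6 := eq_inl' κ h2
  rw [h6, orderOf_injective _ SemidirectProduct.inl_injective] at ho
  exact no_order_G h _ n hn ho

theorem no_order_K₂ (κ : KK h) (r : ℕ) (hr : r = 7 ∨ r = 13) (ho : orderOf κ = 3 * r) : False := by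
  have hr0 : r ≠ 0 := by rcases hr with rfl | rfl <;> norm_num
  have hκ0 : orderOf κ ≠ 0 := by rw [ho]; omega
  -- the element of order r
  have ht : orderOf (κ ^ 3) = r := by
    have := orderOf_pow_orderOf_div hκ0 (n := r) (by rw [ho]; exact dvd_mul_left _ _)
    rwa [ho, Nat.mul_div_cancel _ (Nat.pos_of_ne_zero hr0)] at this
  have hy : orderOf (κ ^ r) = 3 := by
    have := orderOf_pow_orderOf_div hκ0 (n := 3) (by rw [ho]; exact dvd_mul_right _ _)
    rwa [ho, Nat.mul_div_cancel_left _ (by norm_num : 0 < 3)] at this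
  have htr : (κ ^ 3).right = 1 := by rw [right_pow', right_cube h]
  have ht' := eq_inl' (κ ^ 3) htr
  set t₀ := (κ ^ 3).left with ht₀
  set y := κ ^ r with hydef
  have hτ : y.right ≠ 1 := by
    intro h1
    have h2 := eq_inl' y h1
    rw [h2, orderOf_injective _ SemidirectProduct.inl_injective] at hy
    haveI : Finite (G F 1) := finite_G
    have h3 := orderOf_dvd_natCard y.left
    rw [hy, card_G8 h] at h3
    omega
  have hcomm : y * SemidirectProduct.inl t₀ = SemidirectProduct.inl t₀ * y := by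
    rw [← ht', hydef, ← pow_add, ← pow_add, add_comm]
  have hleft := congrArg SemidirectProduct.left hcomm
  simp only [SemidirectProduct.mul_left, SemidirectProduct.left_inl, SemidirectProduct.right_inl, map_one,
    MulAut.one_apply] at hleft
  have hmat := congrArg mat hleft
  rw [mat_mul, mat_mul, mat_theta] at hmat
  -- the traces agree
  have htrace : coefA ((mat t₀).map y.right) = coefA (mat t₀) := by
    have h1 : (mat t₀).map y.right = mat y.left⁻¹ * (mat t₀ * mat y.left) := by
      rw [← hmat, ← Matrix.mul_assoc, ← mat_mul, inv_mul_cancel, mat_one, Matrix.one_mul]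
    have h2 : ∀ M : Matrix (Fin 4) (Fin 4) F, coefA M = Matrix.trace M := by
      intro M
      rw [Matrix.trace, Fin.sum_univ_four]
      rfl
    rw [h2, h2, h1, Matrix.trace_mul_comm, Matrix.mul_assoc, ← mat_mul, mul_inv_cancel, mat_one, Matrix.mul_one]
  have hfix : y.right (coefA (mat t₀)) = coefA (mat t₀) := by
    have hmapA : coefA ((mat t₀).map y.right) = y.right (coefA (mat t₀)) := by
      simp only [coefA, map_add, Matrix.map_apply]
    rw [← hmapA, htrace]
  have hsq := fixed_of_ne h _ hτ _ hfix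
  rw [ht', orderOf_injective _ SemidirectProduct.inl_injective] at ht
  rcases trace_prime_field h t₀ hsq with h1 | h1
  · have h2 := orderOf_dvd_of_pow_eq_one h1
    rw [ht] at h2
    rcases hr with rfl | rfl <;> omega
  · have h2 := orderOf_dvd_of_pow_eq_one h1
    rw [ht] at h2
    rcases hr with rfl | rfl <;> omega

/-- An element of order five fixed by the field automorphisms. -/
noncomputable def g5 : G F 1 := Lg h 0 1 * Tg h

theorem g5_fixed (τ : F ≃+* F) : thetaHom h τ (g5 h) = g5 h := by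
  change twist h τ (Lg h 0 1 * Tg h) = Lg h 0 1 * Tg h
  rw [map_mul, twist_Lg, twist_Tg, map_zero, map_one]

theorem mat_g5 : mat (g5 h) = !![1, 1, 0, 1; 1, 0, 1, 0; 0, 1, 0, 0; 1, 0, 0, 0] := by
  have h1 : (0 : F) ^ 2 ^ (1 + 1) = 0 := by norm_num
  have h3 : (0 : F) ^ (2 ^ (1 + 1) + 2) = 0 := by norm_num
  change Lm 1 (0 : F) 1 * Tm F = _
  ext i j
  fin_cases i <;> fin_cases j <;> simp [Lm, Tm, Matrix.mul_apply, Fin.sum_univ_four, fz]

theorem g5_ne_one : g5 h ≠ 1 := by
  intro he
  have h1 := congrArg mat he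
  rw [mat_g5, mat_one] at h1
  have h2 := congrFun (congrFun h1 3) 0
  simp at h2

theorem order_g5 : orderOf (g5 h) = 5 := by
  haveI : Fact (Nat.Prime 5) := ⟨Nat.prime_five⟩
  apply orderOf_eq_prime _ (g5_ne_one h)
  apply pow_five_of_trace_one h
  rw [mat_g5]
  simp [coefA]

theorem Tg_ne_one : Tg h ≠ 1 := by
  intro he
  have h1 := congrArg mat he
  rw [mat_Tg, mat_one] at h1
  have h2 := congrFun (congrFun h1 3) 0
  simp [Tm] at h2

theorem order_Tg : orderOf (Tg h) = 2 := by
  haveI : Fact (Nat.Prime 2) := ⟨Nat.prime_two⟩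
  apply orderOf_eq_prime _ (Tg_ne_one h)
  rw [pow_two, Tg_sq]

theorem exists_K6 : ∃ κ : KK h, orderOf κ = 6 := by
  refine ⟨SemidirectProduct.inl (Tg h) * SemidirectProduct.inr (phi h), ?_⟩
  rw [order_comm_inl_inr _ _ (twist_Tg h _), order_Tg, order_phi]
  rw [order_Tg, order_phi]
  norm_num

theorem exists_K15 : ∃ κ : KK h, orderOf κ = 15 := by
  refine ⟨SemidirectProduct.inl (g5 h) * SemidirectProduct.inr (phi h), ?_⟩
  rw [order_comm_inl_inr _ _ (g5_fixed h _), order_g5, order_phi]
  rw [order_g5, order_phi]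
  norm_num

end KK

end Cfsg.Agent.Lib.PG63
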