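import Mathlib
import Cfsg.Agent.Lib.PG63.SzB

/-!
# The module `M₄(F₈)` for `Sz(8) ⋊ C₃`

`g` acts on `X` by `X ↦ g X (g^φ)ᵀ` where `φ` is the Frobenius automorphism: this is the tensor product of the natural
module and its Frobenius twist.  Elements of order `13` have no nonzero fixed point, whereas elements of order `5`
and `7` do.
-/

set_option autoImplicit false
set_option linter.unusedSectionVars false
set_option linter.unusedVariables false
set_option linter.unusedSimpArgs false

namespace Cfsg.Agent.Lib.PG63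

open Matrix Cfsg.Agent.Lib.Suzuki.Basic Cfsg.Agent.Lib.Suzuki.Group Cfsg.Agent.Lib.Suzuki.Struct
  Cfsg.Agent.Lib.Suzuki.Order Cfsg.Agent.Lib.Suzuki.Gen Cfsg.Agent.Lib.Suzuki.Fix Cfsg.Agent.Lib.Suzuki.Types
  Cfsg.Agent.Lib.Suzuki.Iso Cfsg.Agent.Lib.Suzuki.Core Cfsg.Agent.Lib.Suzuki.Aut

variable {F : Type*} [Field F] [Fintype F] (h : Hyp F 1)

/-- The module. -/
abbrev VV (F : Type*) := Matrix (Fin 4) (Fin 4) F

/-- The action. -/
noncomputable def actFun (κ : KK h) (X : VV F) : VV F :=
  mat κ.left * X.map κ.right * ((mat κ.left).map (phi h))ᵀ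

theorem actFun_one (X : VV F) : actFun h 1 X = X := by
  have h1 : (1 : KK h).left = 1 := rfl
  have h2 : (1 : KK h).right = 1 := rfl
  have h3 : (1 : Matrix (Fin 4) (Fin 4) F).map (phi h) = 1 := by
    exact Matrix.map_one _ (map_zero _) (map_one _)
  rw [actFun, h1, h2, mat_one, h3, Matrix.transpose_one, Matrix.one_mul, Matrix.mul_one]
  ext i j
  rfl

theorem actFun_mul (κ κ' : KK h) (X : VV F) : actFun h (κ * κ') X = actFun h κ (actFun h κ' X) := by
  have h1 : (κ * κ').left = κ.left * thetaHom h κ.right κ'.left := rfl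
  have h2 : (κ * κ').right = κ.right * κ'.right := rfl
  have h3 : mat (κ * κ').left = mat κ.left * (mat κ'.left).map κ.right := by
    rw [h1, mat_mul, mat_theta]
  simp only [actFun]
  rw [h3, h2]
  set A := mat κ.left
  set A' := mat κ'.left
  set τ := κ.right
  set τ' := κ'.right
  have e1 : (A * A'.map τ).map (phi h) = A.map (phi h) * (A'.map τ).map (phi h) :=
    Matrix.map_mul (f := phi h)
  have e2 : (A' * X.map τ' * (A'.map (phi h))ᵀ).map τ =
      A'.map τ * X.map (τ * τ') * ((A'.map τ).map (phi h))ᵀ := by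
    have e3 : (X.map τ').map τ = X.map (τ * τ') := by
      ext i j
      rfl
    have e4 : ((A'.map (phi h))ᵀ).map τ = ((A'.map τ).map (phi h))ᵀ := by
      ext i j
      simp only [Matrix.map_apply, Matrix.transpose_apply, phi_apply, map_pow]
    rw [Matrix.map_mul (f := τ), Matrix.map_mul (f := τ), e3, e4]
  rw [e1, e2, Matrix.transpose_mul]
  simp only [Matrix.mul_assoc]

theorem actFun_add (κ : KK h) (X Y : VV F) : actFun h κ (X + Y) = actFun h κ X + actFun h κ Y := by
  simp only [actFun]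
  have e : (X + Y).map κ.right = X.map κ.right + Y.map κ.right := by
    ext i j
    simp
  rw [e, Matrix.mul_add, Matrix.add_mul]

theorem actFun_zero (κ : KK h) : actFun h κ (0 : VV F) = 0 := by
  simp only [actFun]
  have e : (0 : VV F).map κ.right = 0 := by
    ext i j
    simp
  rw [e, Matrix.mul_zero, Matrix.zero_mul]

/-- The action as a homomorphism. -/
noncomputable def actHom : KK h →* AddMonoid.End (VV F) where
  toFun κ := { toFun := actFun h κ, map_zero' := actFun_zero h κ, map_add' := actFun_add h κ }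
  map_one' := by
    apply AddMonoidHom.ext
    exact actFun_one h
  map_mul' κ κ' := by
    apply AddMonoidHom.ext
    exact actFun_mul h κ κ'

theorem actHom_apply (κ : KK h) (X : VV F) : actHom h κ X = actFun h κ X := rfl

include h

/-- A vector annihilated by a reciprocal quadratic in an element of order `13` is zero. -/
theorem no_vec (t : G F 1) (ho : orderOf t = 13) (c : F) (v : Fin 4 → F)
    (hv : mat t *ᵥ (mat t *ᵥ v) + c • (mat t *ᵥ v) + v = 0) : v = 0 := by
  classical
  by_contra hv0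
  set A := mat t with hA
  let M : Matrix (Fin 2) (Fin 2) F := !![0, -1; 1, -c]
  have hdet : M.det = 1 := by
    simp [M, Matrix.det_fin_two]
  let M' : GL (Fin 2) F := Matrix.GeneralLinearGroup.mkOfDetNeZero M (by rw [hdet]; exact one_ne_zero)
  have hcard : Nat.card (GL (Fin 2) F) = 3528 := by
    rw [Matrix.card_GL_field, card8 h]
    simp [Fin.prod_univ_two]
  haveI : Finite (GL (Fin 2) F) := inferInstance
  have hM' : M' ^ 3528 = 1 := by
    rw [← hcard]
    exact pow_card_eq_one'
  have hM : M ^ 3528 = 1 := by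
    have := congrArg (fun U : GL (Fin 2) F => (U : Matrix (Fin 2) (Fin 2) F)) hM'
    simpa [M'] using this
  let ψ : (Fin 2 → F) → (Fin 4 → F) := fun z => z 0 • v + z 1 • (A *ᵥ v)
  have hAA : A *ᵥ (A *ᵥ v) = - (c • (A *ᵥ v)) - v := by
    have := hv
    rw [← sub_eq_zero]
    rw [← this]
    abel
  have hψ : ∀ z, A *ᵥ ψ z = ψ (M *ᵥ z) := by
    intro z
    have e0 : (M *ᵥ z) 0 = - z 1 := by
      simp [M, Matrix.mulVec, dotProduct, Fin.sum_univ_two]
    have e1 : (M *ᵥ z) 1 = z 0 - c * z 1 := by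
      simp [M, Matrix.mulVec, dotProduct, Fin.sum_univ_two]
      ring
    simp only [ψ]
    rw [Matrix.mulVec_add, Matrix.mulVec_smul, Matrix.mulVec_smul, hAA, e0, e1]
    simp only [smul_sub, smul_neg, sub_smul, neg_smul, smul_smul]
    rw [mul_comm (z 1) c]
    abel
  have hit : ∀ (n : ℕ) (z : Fin 2 → F), (A ^ n) *ᵥ ψ z = ψ ((M ^ n) *ᵥ z) := by
    intro n
    induction n with
    | zero => intro z; simp
    | succ n ih =>
      intro z
      rw [pow_succ, ← Matrix.mulVec_mulVec, hψ, ih, pow_succ, Matrix.mulVec_mulVec]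
  have hψv : ψ ![1, 0] = v := by
    simp [ψ]
  have h1 := hit 3528 ![1, 0]
  rw [hM, Matrix.one_mulVec, hψv] at h1
  have hA13 : A ^ 13 = 1 := by
    rw [hA, ← mat_pow', ← ho, pow_orderOf_eq_one, mat_one]
  have h2 : A ^ 3528 = A ^ 5 := by
    have : (3528 : ℕ) = 13 * 271 + 5 := by norm_num
    rw [this, pow_add, pow_mul, hA13, one_pow, one_mul]
  rw [h2] at h1
  obtain ⟨y₀, hy0, hy1⟩ := exists_y0 h
  have h3 := pow_four_eq_one_of_fixed h.two_eq_zero y₀ hy0 hy1 (e := 2 ^ (1 + 1)) (by positivity)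
    (fun x y => h.add_pow_sg x y) (colRel_mat h (t ^ 5)) (star_mat h (t ^ 5)) hv0 (by
      rw [mat_pow']
      exact h1)
  have h4 : t ^ 20 = 1 := by
    apply mat_inj
    rw [mat_pow', mat_one]
    rw [mat_pow', ← pow_mul] at h3
    exact h3
  have h5 := orderOf_dvd_of_pow_eq_one h4
  rw [ho] at h5
  omega

theorem right_eq_one (κ : KK h) (hc : Nat.Coprime (orderOf κ) 3) : κ.right = 1 := by
  have h1 : κ.right ^ orderOf κ = 1 := by
    rw [← right_pow', pow_orderOf_eq_one]
    rfl
  have h3 : orderOf κ.right ∣ orderOf κ := orderOf_dvd_of_pow_eq_one h1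
  have h4 : orderOf κ.right ∣ 3 := orderOf_dvd_of_pow_eq_one (right_cube h κ)
  have h5 := Nat.eq_one_of_dvd_coprimes hc h3 h4
  exact orderOf_eq_one_iff.1 h5

/-- Elements of order `13` have no fixed points. -/
theorem no_fix (κ : KK h) (ho : orderOf κ = 13) (X : VV F) (hX : actFun h κ X = X) : X = 0 := by
  classical
  have hr : κ.right = 1 := right_eq_one h κ (by rw [ho]; norm_num)
  have hκ := eq_inl' κ hr
  set t := κ.left with ht
  have hot : orderOf t = 13 := by
    rw [hκ, orderOf_injective _ SemidirectProduct.inl_injective] at ho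
    exact ho
  set A := mat t with hA
  set a := coefA A with ha
  have hw : a ^ 2 - a ≠ 0 := by
    intro h0
    rcases trace_prime_field h t (sub_eq_zero.1 h0) with h1 | h1
    · have h2 := orderOf_dvd_of_pow_eq_one h1
      rw [hot] at h2
      omega
    · have h2 := orderOf_dvd_of_pow_eq_one h1
      rw [hot] at h2
      omega
  let s : G F 1 := thetaHom h (phi h) t
  have hS : mat s = A.map (phi h) := rfl
  set S := mat s with hSdef
  have hX' : A * X * Sᵀ = X := by
    have h1 : actFun h κ X = A * X.map κ.right * (A.map (phi h))ᵀ := rfl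
    have h2 : X.map κ.right = X := by
      rw [hr]
      ext i j
      rfl
    rw [h1, h2, ← hS] at hX
    exact hX
  have hform : Sᵀ * Jm * S = Jm := (colRel_iff S).1 (colRel_mat h s)
  set Y := X * (Jm : Matrix (Fin 4) (Fin 4) F) with hY
  have hAY : A * Y = Y * S := by
    calc A * Y = A * X * (Sᵀ * Jm * S) := by rw [hform, hY, Matrix.mul_assoc]
      _ = (A * X * Sᵀ) * Jm * S := by simp only [Matrix.mul_assoc]
      _ = Y * S := by rw [hX']
  clear_value Y
  have hpow : ∀ n : ℕ, A ^ n * Y = Y * S ^ n := by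
    intro n
    induction n with
    | zero => simp
    | succ n ih =>
      rw [pow_succ, Matrix.mul_assoc, hAY, ← Matrix.mul_assoc, ih, Matrix.mul_assoc, ← pow_succ]
  have hcs : coefA S = a ^ 2 := by
    rw [hS, ha]
    simp only [coefA, Matrix.map_apply, phi_apply, h.add_sq]
  have hcS := cayley h s
  rw [← hSdef, hcs] at hcS
  have hexp : (a ^ 2) ^ 2 ^ (1 + 1) = a := by
    have : (a ^ 2) ^ 2 ^ (1 + 1) = a ^ 8 := by ring
    rw [this]
    exact pow_eight h a
  rw [hexp] at hcS
  have hcA := cayley h t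
  rw [← hA, ← ha] at hcA
  have hexp' : a ^ 2 ^ (1 + 1) = a ^ 4 := by norm_num
  rw [hexp'] at hcA
  -- the two relations applied to `Y`
  have E1 : A ^ 4 * Y + (a ^ 2) • (A ^ 3 * Y) + a • (A ^ 2 * Y) + (a ^ 2) • (A * Y) + Y = 0 := by
    have := congrArg (fun W => Y * W) hcS
    simp only [Matrix.mul_add, Matrix.mul_smul, Matrix.mul_one, Matrix.mul_zero] at this
    rw [← hpow, ← hpow, ← hpow] at this
    rw [hAY]
    exact this
  have E2 : A ^ 4 * Y + a • (A ^ 3 * Y) + (a ^ 4) • (A ^ 2 * Y) + a • (A * Y) + Y = 0 := by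
    have := congrArg (fun W => W * Y) hcA
    simp only [Matrix.add_mul, Matrix.smul_mul, Matrix.one_mul, Matrix.zero_mul] at this
    exact this
  set c := (a - a ^ 4) / (a ^ 2 - a) with hc
  have hcw : (a ^ 2 - a) * c = a - a ^ 4 := by
    rw [hc, mul_comm, div_mul_cancel₀ _ hw]
  have E3 : (a ^ 2 - a) • (A ^ 3 * Y + c • (A ^ 2 * Y) + A * Y) = 0 := by
    rw [smul_add, smul_add, smul_smul, hcw]
    have : (a ^ 2 - a) • (A ^ 3 * Y) + (a - a ^ 4) • (A ^ 2 * Y) + (a ^ 2 - a) • (A * Y) =
        (A ^ 4 * Y + (a ^ 2) • (A ^ 3 * Y) + a • (A ^ 2 * Y) + (a ^ 2) • (A * Y) + Y) -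
        (A ^ 4 * Y + a • (A ^ 3 * Y) + (a ^ 4) • (A ^ 2 * Y) + a • (A * Y) + Y) := by
      simp only [sub_smul]
      abel
    rw [this, E1, E2, sub_zero]
  have E4 : A ^ 3 * Y + c • (A ^ 2 * Y) + A * Y = 0 := (smul_eq_zero.1 E3).resolve_left hw
  have E5 : A ^ 2 * Y + c • (A * Y) + Y = 0 := by
    have h1 : A * (A ^ 2 * Y + c • (A * Y) + Y) = 0 := by
      rw [Matrix.mul_add, Matrix.mul_add, Matrix.mul_smul, ← Matrix.mul_assoc A (A ^ 2), ← Matrix.mul_assoc A A,
        ← pow_succ', ← pow_two]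
      exact E4
    have h2 : mat t⁻¹ * A = 1 := by
      rw [hA, ← mat_mul, inv_mul_cancel, mat_one]
    have h3 := congrArg (fun W => mat t⁻¹ * W) h1
    simp only [← Matrix.mul_assoc, h2, Matrix.one_mul, Matrix.mul_zero] at h3
    simpa only [Matrix.mul_assoc, Matrix.one_mul, Matrix.mul_add, Matrix.mul_smul] using h3
  have hY0 : Y = 0 := by
    apply Matrix.toLin'.injective
    refine LinearMap.ext fun u => ?_
    simp only [Matrix.toLin'_apply, map_zero, LinearMap.zero_apply]
    apply no_vec h t hot c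
    have h1 := congrArg (fun W => W *ᵥ u) E5
    simp only [Matrix.add_mulVec, Matrix.smul_mulVec, Matrix.zero_mulVec] at h1
    have e1 : (A ^ 2 * Y) *ᵥ u = A *ᵥ (A *ᵥ (Y *ᵥ u)) := by
      rw [pow_two, Matrix.mulVec_mulVec, Matrix.mulVec_mulVec, Matrix.mul_assoc]
    have e2 : (A * Y) *ᵥ u = A *ᵥ (Y *ᵥ u) := by
      rw [Matrix.mulVec_mulVec]
    rw [e1, e2] at h1
    exact h1
  have hXY : X = Y * Jm := by
    rw [hY, Matrix.mul_assoc, Jm_mul_Jm, Matrix.mul_one]
  rw [hXY, hY0, Matrix.zero_mul]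

/-- An element of order five with a fixed point. -/
theorem fix5 : actFun h (SemidirectProduct.inl (g5 h)) (Jm : VV F) = Jm := by
  have h1 : (SemidirectProduct.inl (g5 h) : KK h).left = g5 h := rfl
  have h2 : (SemidirectProduct.inl (g5 h) : KK h).right = 1 := rfl
  have h3 : (mat (g5 h)).map (phi h) = mat (g5 h) := by
    rw [← mat_theta, g5_fixed]
  have h4 : (Jm : VV F).map ((1 : F ≃+* F)) = Jm := by
    ext i j
    rfl
  simp only [actFun]
  rw [h1, h2, h3, h4]
  exact (rowRel_iff _).1 (rowRel_of_colRel (colRel_mat h (g5 h)))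

theorem Jm_ne : (Jm : VV F) ≠ 0 := by
  intro he
  have h1 := congrFun (congrFun he 0) 3
  simp [Jm] at h1

/-- An element of order seven with a fixed point. -/
theorem fix7 : ∃ (k : Fˣ) (X : VV F), orderOf (Dg h k) = 7 ∧ X ≠ 0 ∧ actFun h (SemidirectProduct.inl (Dg h k)) X = X := by
  obtain ⟨y₀, hy0, hy1⟩ := exists_y0 h
  let k : Fˣ := Units.mk0 y₀ hy0
  have hk7 : (k : F) ^ 7 = 1 := by
    have := FiniteField.pow_card_sub_one_eq_one (k : F) k.ne_zero
    rwa [card8 h] at this
  have hk1 : k ≠ 1 := by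
    intro he
    apply hy1
    have := congrArg (Units.val) he
    simpa [k] using this
  have hk7u : k ^ 7 = 1 := by
    apply Units.ext
    simpa using hk7
  refine ⟨k, !![0, 1, 0, 0; 0, 0, 0, 0; 0, 0, 0, 0; 0, 0, 0, 0], ?_, ?_, ?_⟩
  · haveI : Fact (Nat.Prime 7) := ⟨by norm_num⟩
    apply orderOf_eq_prime
    · have hpw : ∀ n : ℕ, Dg h k ^ n = Dg h (k ^ n) := by
        intro n
        induction n with
        | zero => rw [pow_zero, pow_zero, Dg_one]
        | succ n ih => rw [pow_succ, pow_succ, ih, Dg_mul]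
      rw [hpw, hk7u, Dg_one]
    · intro he
      have h1 := congrArg mat he
      rw [mat_Dg, mat_one] at h1
      have h2 := congrFun (congrFun h1 1) 1
      simp [Dm] at h2
      rcases h2 with h2 | h2
      · exact hk1 h2
      · apply hk1
        apply Units.ext
        rw [h2]
        simpa using h.neg_eq 1
  · intro he
    have h1 := congrFun (congrFun he 0) 1
    simp at h1
  · have h1 : (SemidirectProduct.inl (Dg h k) : KK h).left = Dg h k := rfl
    have h2 : (SemidirectProduct.inl (Dg h k) : KK h).right = 1 := rfl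
    simp only [actFun]
    rw [h1, h2, mat_Dg]
    have e : (k : F) ^ 2 ^ 1 * k * ((k : F) ^ 2 ^ 1) ^ 2 = 1 := by
      rw [← hk7]
      ring
    ext i j
    fin_cases i <;> fin_cases j <;>
      simp [Dm, Matrix.mul_apply, Fin.sum_univ_four, phi_apply, Matrix.transpose_apply, Matrix.map_apply]
    simpa using e

end Cfsg.Agent.Lib.PG63
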