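import Mathlib
import Cfsg.Agent.Lib.PG63.PSpB
import Cfsg.Agent.Lib.PG63.SzC

/-!
# Groups of unbounded order with the prime graph of `PSp₆(3)`

The group `V^s ⋊ (Sz(8) ⋊ C₃)`, with `V = M₄(F₈)`, has the prime graph of `PSp₆(3)`: the vertices are `2, 3, 5, 7, 13`
and the edges are `2-3, 2-5, 2-7, 3-5`.
-/

set_option autoImplicit false
set_option linter.unusedSectionVars false
set_option linter.unusedVariables false
set_option linter.unusedSimpArgs false

namespace Cfsg.Agent.Lib.PG63

open Matrix Cfsg.Agent.Lib.Suzuki.Basic Cfsg.Agent.Lib.Suzuki.Group Cfsg.Agent.Lib.Suzuki.Struct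
  Cfsg.Agent.Lib.Suzuki.Order Cfsg.Agent.Lib.Suzuki.Gen Cfsg.Agent.Lib.Suzuki.Fix Cfsg.Agent.Lib.Suzuki.Types
  Cfsg.Agent.Lib.Suzuki.Iso Cfsg.Agent.Lib.Suzuki.Core Cfsg.Agent.Lib.Suzuki.Aut

section semi

variable {A L : Type*} [AddCommGroup A] [_root_.Group L]

/-- From an additive action to automorphisms of the multiplicative group. -/
def toMulAut (act : L →* AddMonoid.End A) : L →* MulAut (Multiplicative A) where
  toFun l :=
    { toFun := fun a => Multiplicative.ofAdd (act l (Multiplicative.toAdd a))
      invFun := fun a => Multiplicative.ofAdd (act l⁻¹ (Multiplicative.toAdd a))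
      left_inv := fun a => by
        have h1 : act l⁻¹ (act l (Multiplicative.toAdd a)) = (act l⁻¹ * act l) (Multiplicative.toAdd a) := rfl
        simp only [toAdd_ofAdd]
        rw [h1, ← map_mul, inv_mul_cancel, map_one]
        rfl
      right_inv := fun a => by
        have h1 : act l (act l⁻¹ (Multiplicative.toAdd a)) = (act l * act l⁻¹) (Multiplicative.toAdd a) := rfl
        simp only [toAdd_ofAdd]
        rw [h1, ← map_mul, mul_inv_cancel, map_one]
        rfl
      map_mul' := fun a b => by
        simp only [toAdd_mul, map_add, ofAdd_add] }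
  map_one' := by
    apply MulEquiv.ext
    intro a
    change Multiplicative.ofAdd (act 1 (Multiplicative.toAdd a)) = a
    rw [map_one]
    rfl
  map_mul' l l' := by
    apply MulEquiv.ext
    intro a
    change Multiplicative.ofAdd (act (l * l') (Multiplicative.toAdd a)) =
      Multiplicative.ofAdd (act l (act l' (Multiplicative.toAdd a)))
    rw [map_mul]
    rfl

theorem toMulAut_apply (act : L →* AddMonoid.End A) (l : L) (a : A) :
    toMulAut act l (Multiplicative.ofAdd a) = Multiplicative.ofAdd (act l a) := rfl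

theorem sd_sq (h2 : ∀ a : A, a + a = 0) (a : Multiplicative A) : a ^ 2 = 1 := by
  apply Multiplicative.toAdd.injective
  rw [toAdd_pow, toAdd_one, two_nsmul]
  exact h2 _

/-- The order of an element of `A ⋊ L`, where `A` has exponent two. -/
theorem sd_order_cases [Finite L] [Finite A] (φ : L →* MulAut (Multiplicative A)) (h2 : ∀ a : A, a + a = 0)
    (p : Multiplicative A ⋊[φ] L) :
    orderOf p = orderOf p.right ∨
      (orderOf p = 2 * orderOf p.right ∧ ∃ a : Multiplicative A, a ≠ 1 ∧ φ p.right a = a) := by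
  set n := orderOf p.right with hn
  have hn0 : 0 < n := orderOf_pos _
  have hr : (p ^ n).right = 1 := by
    rw [right_pow', hn, pow_orderOf_eq_one]
  have he := eq_inl' (p ^ n) hr
  set a := (p ^ n).left with ha
  have h3 : p ^ (2 * n) = 1 := by
    rw [mul_comm, pow_mul, he, ← map_pow, sd_sq h2, map_one]
  have h4 : n ∣ orderOf p := by
    rw [hn]
    apply orderOf_dvd_of_pow_eq_one
    rw [← right_pow', pow_orderOf_eq_one]
    rfl
  have h5 : orderOf p ∣ 2 * n := orderOf_dvd_of_pow_eq_one h3
  obtain ⟨k, hk⟩ := h4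
  have hk2 : k ∣ 2 := by
    rw [hk, mul_comm] at h5
    exact Nat.dvd_of_mul_dvd_mul_right hn0 h5
  have hk' : k = 1 ∨ k = 2 := (Nat.dvd_prime Nat.prime_two).1 hk2
  rcases hk' with rfl | rfl
  · left
    rw [hk, mul_one]
  · right
    refine ⟨by rw [hk, mul_comm], a, ?_, ?_⟩
    · intro ha1
      have h6 : p ^ n = 1 := by rw [he, ha1, map_one]
      have h7 := orderOf_dvd_of_pow_eq_one h6
      rw [hk] at h7
      have h8 := Nat.le_of_dvd hn0 h7
      omega
    · have hcomm : p * SemidirectProduct.inl a = SemidirectProduct.inl a * p := by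
        rw [← he, ← pow_succ', ← pow_succ]
      have hleft := congrArg SemidirectProduct.left hcomm
      simp only [SemidirectProduct.mul_left, SemidirectProduct.left_inl, SemidirectProduct.right_inl, map_one,
        MulAut.one_apply] at hleft
      rw [mul_comm] at hleft
      exact mul_right_cancel hleft

/-- A fixed vector gives an element of twice the order. -/
theorem sd_double (φ : L →* MulAut (Multiplicative A)) (h2 : ∀ a : A, a + a = 0) (κ : L) (a : Multiplicative A)
    (ha : a ≠ 1) (hfix : φ κ a = a) (ho : Odd (orderOf κ)) :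
    orderOf ((SemidirectProduct.inl a : Multiplicative A ⋊[φ] L) * SemidirectProduct.inr κ) = 2 * orderOf κ := by
  have ha2 : orderOf a = 2 := by
    haveI : Fact (Nat.Prime 2) := ⟨Nat.prime_two⟩
    exact orderOf_eq_prime (sd_sq h2 a) ha
  rw [order_comm_inl_inr _ _ hfix, ha2]
  rw [ha2]
  exact Nat.coprime_two_left.2 ho

end semi

variable {F : Type*} [Field F] [Fintype F] (h : Hyp F 1)

include h in
theorem VV_two (X : VV F) : X + X = 0 := by
  ext i j
  exact h.add_self _

/-- The diagonal action on `V^s`. -/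
noncomputable def actS (s : ℕ) : KK h →* AddMonoid.End (Fin s → VV F) where
  toFun κ := (actHom h κ).compLeft (Fin s)
  map_one' := by
    apply AddMonoidHom.ext
    intro v
    funext i
    change actHom h 1 (v i) = v i
    rw [map_one]
    rfl
  map_mul' κ κ' := by
    apply AddMonoidHom.ext
    intro v
    funext i
    change actHom h (κ * κ') (v i) = actHom h κ (actHom h κ' (v i))
    rw [map_mul]
    rfl

/-- The groups. -/
abbrev HH (s : ℕ) := Multiplicative (Fin s → VV F) ⋊[toMulAut (actS h s)] KK h

instance instFiniteHH (s : ℕ) : Finite (HH h s) := by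
  haveI := instFiniteKK h
  exact Finite.of_equiv _ (SemidirectProduct.equivProd (φ := toMulAut (actS h s))).symm

include h in
theorem card_VV : Nat.card (VV F) = 8 ^ 16 := by
  change Nat.card (Fin 4 → Fin 4 → F) = _
  rw [Nat.card_fun, Nat.card_fun, Nat.card_eq_fintype_card, card8 h]
  simp

theorem card_HH (s : ℕ) : Nat.card (HH h s) = (8 ^ 16) ^ s * 87360 := by
  rw [SemidirectProduct.card, card_KK h]
  congr 1
  change Nat.card (Fin s → VV F) = _
  rw [Nat.card_fun, card_VV h]
  simp

theorem prime_HH (s : ℕ) {p : ℕ} (hp : p.Prime) :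
    p ∣ Nat.card (HH h s) ↔ p = 2 ∨ p = 3 ∨ p = 5 ∨ p = 7 ∨ p = 13 := by
  rw [card_HH h s]
  have e : (87360 : ℕ) = 2 ^ 6 * 3 * 5 * 7 * 13 := by norm_num
  have e2 : ((8 : ℕ) ^ 16) ^ s = 2 ^ (48 * s) := by
    rw [← pow_mul]
    have : (8 : ℕ) = 2 ^ 3 := by norm_num
    rw [this, ← pow_mul]
    ring_nf
  rw [e, e2]
  constructor
  · intro h1
    have h2eq : p ∣ 2 → p = 2 := (Nat.prime_dvd_prime_iff_eq hp Nat.prime_two).1
    rcases (Nat.Prime.dvd_mul hp).1 h1 with h1 | h1
    · left
      exact h2eq (hp.dvd_of_dvd_pow h1)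
    rcases (Nat.Prime.dvd_mul hp).1 h1 with h1 | h1
    · rcases (Nat.Prime.dvd_mul hp).1 h1 with h1 | h1
      · rcases (Nat.Prime.dvd_mul hp).1 h1 with h1 | h1
        · rcases (Nat.Prime.dvd_mul hp).1 h1 with h1 | h1
          · left
            exact h2eq (hp.dvd_of_dvd_pow h1)
          · right; left
            exact (Nat.prime_dvd_prime_iff_eq hp Nat.prime_three).1 h1
        · right; right; left
          exact (Nat.prime_dvd_prime_iff_eq hp Nat.prime_five).1 h1
      · right; right; right; left
        exact (Nat.prime_dvd_prime_iff_eq hp (by norm_num)).1 h1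
    · right; right; right; right
      exact (Nat.prime_dvd_prime_iff_eq hp (by norm_num)).1 h1
  · rintro (rfl | rfl | rfl | rfl | rfl) <;>
      exact Dvd.dvd.mul_left (by norm_num) _

/-- A fixed vector in `V^s` gives a fixed vector in `V`. -/
theorem exists_coord (s : ℕ) (κ : KK h) (a : Multiplicative (Fin s → VV F)) (ha : a ≠ 1)
    (hfix : toMulAut (actS h s) κ a = a) : ∃ X : VV F, X ≠ 0 ∧ actFun h κ X = X := by
  have h1 : ∃ i, (Multiplicative.toAdd a) i ≠ 0 := by
    by_contra hc
    push Not at hc
    apply ha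
    apply Multiplicative.toAdd.injective
    funext i
    exact hc i
  obtain ⟨i, hi⟩ := h1
  refine ⟨_, hi, ?_⟩
  have h2 := congrFun (congrArg Multiplicative.toAdd hfix) i
  exact h2

/-- The edges of the prime graph of the group `V^s ⋊ (Sz(8) ⋊ C₃)`. -/
theorem edges_HH (s : ℕ) (hs : 1 ≤ s) {p q : ℕ} (hp : p.Prime) (hq : q.Prime) (hpq : p ≠ q) :
    (∃ g : HH h s, orderOf g = p * q) ↔ p * q = 6 ∨ p * q = 10 ∨ p * q = 14 ∨ p * q = 15 := by
  haveI := instFiniteKK h
  haveI : Finite (VV F) := inferInstance
  have h2 : ∀ a : Fin s → VV F, a + a = 0 := by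
    intro a
    funext i
    exact VV_two h _
  constructor
  · rintro ⟨g, hg⟩
    have hp5 := (prime_HH h s hp).1 ((Dvd.intro _ hg.symm).trans (orderOf_dvd_natCard g))
    have hq5 := (prime_HH h s hq).1 ((Dvd.intro_left _ hg.symm).trans (orderOf_dvd_natCard g))
    rcases sd_order_cases _ h2 g with h3 | ⟨h3, a, ha, hfix⟩
    · rw [hg] at h3
      have hK : ∀ n, n = 26 ∨ n = 35 ∨ n = 65 ∨ n = 91 → p * q ≠ n := by
        intro n hn he
        exact no_order_K₁ h g.right n hn (by rw [← h3, he])
      have hK2 : ∀ r, r = 7 ∨ r = 13 → p * q ≠ 3 * r := by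
        intro r hr he
        exact no_order_K₂ h g.right r hr (by rw [← h3, he])
      have a1 := hK 26 (by norm_num)
      have a2 := hK 35 (by norm_num)
      have a3 := hK 65 (by norm_num)
      have a4 := hK 91 (by norm_num)
      have a5 := hK2 7 (by norm_num)
      have a6 := hK2 13 (by norm_num)
      rcases hp5 with rfl | rfl | rfl | rfl | rfl <;> rcases hq5 with rfl | rfl | rfl | rfl | rfl <;>
        first
          | exact absurd rfl hpq
          | (norm_num; done)
          | (revert a1 a2 a3 a4 a5 a6; norm_num; done)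
    · rw [hg] at h3
      obtain ⟨X, hX0, hX⟩ := exists_coord h s g.right a ha hfix
      have h13 : orderOf g.right ≠ 13 := fun he => hX0 (no_fix h g.right he X hX)
      rcases hp5 with rfl | rfl | rfl | rfl | rfl <;> rcases hq5 with rfl | rfl | rfl | rfl | rfl <;>
        first
          | exact absurd rfl hpq
          | (norm_num; done)
          | (exfalso; omega)
  · haveI := instFiniteKK h
    have key : ∀ (κ : KK h) (X : VV F), X ≠ 0 → actFun h κ X = X → Odd (orderOf κ) →
        ∃ g : HH h s, orderOf g = 2 * orderOf κ := by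
      intro κ X hX0 hX hodd
      let a : Multiplicative (Fin s → VV F) := Multiplicative.ofAdd (fun _ => X)
      refine ⟨_, sd_double (toMulAut (actS h s)) h2 κ a ?_ ?_ hodd⟩
      · intro ha
        apply hX0
        have := congrFun (congrArg Multiplicative.toAdd ha) ⟨0, hs⟩
        exact this
      · apply Multiplicative.toAdd.injective
        funext i
        exact hX
    have inr_order : ∀ (κ : KK h), orderOf (SemidirectProduct.inr κ : HH h s) = orderOf κ := fun κ =>
      orderOf_injective _ SemidirectProduct.inr_injective κ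
    rintro (he | he | he | he) <;> rw [he]
    · obtain ⟨κ, hκ⟩ := exists_K6 h
      exact ⟨SemidirectProduct.inr κ, by rw [inr_order, hκ]⟩
    · have h1 : orderOf (SemidirectProduct.inl (g5 h) : KK h) = 5 := by
        rw [orderOf_injective _ SemidirectProduct.inl_injective, order_g5]
      obtain ⟨g, hg⟩ := key _ _ (Jm_ne h) (fix5 h) (by rw [h1]; decide)
      exact ⟨g, by rw [hg, h1]⟩
    · obtain ⟨k, X, h0, hX0, hX⟩ := fix7 h
      have h1 : orderOf (SemidirectProduct.inl (Dg h k) : KK h) = 7 := by
        rw [orderOf_injective _ SemidirectProduct.inl_injective, h0]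
      obtain ⟨g, hg⟩ := key _ _ hX0 hX (by rw [h1]; decide)
      exact ⟨g, by rw [hg, h1]⟩
    · obtain ⟨κ, hκ⟩ := exists_K15 h
      exact ⟨SemidirectProduct.inr κ, by rw [inr_order, hκ]⟩

end Cfsg.Agent.Lib.PG63
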